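import Mathlib
import Cfsg.Agent.H79.QuadSolv
import Cfsg.Agent.H91.SolvPCore
import Cfsg.Agent.H25.CoprimeCoset

/-!
# A conjugation closed set of `p`-elements with abelian intersections, seen inside solvable groups
-/

set_option autoImplicit false

namespace Cfsg.Agent.H31.Flav

open Subgroup Cfsg

universe u

/-- `D` is a normal set of `p`-elements meeting each `p`-subgroup in a normal abelian subgroup. -/
structure Loc {G : Type u} [Group G] (p : ℕ) (D : Set G) : Prop where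
  pel : ∀ x ∈ D, ∃ k : ℕ, x ^ p ^ k = 1
  conj : ∀ x ∈ D, ∀ g : G, g * x * g⁻¹ ∈ D
  loc : ∀ S : Subgroup G, IsPGroup p S → ∃ W : Subgroup G, W ≤ S ∧ (∀ x ∈ W, ∀ y ∈ W, x * y = y * x) ∧
    (∀ s ∈ S, ∀ x ∈ W, s * x * s⁻¹ ∈ W) ∧ ∀ x ∈ S, (x ∈ D ↔ x ∈ W)

theorem Loc.comap {G : Type u} [Group G] {p : ℕ} {D : Set G} (h : Loc p D) (V : Subgroup G) :
    Loc p {v : V | (v : G) ∈ D} := by
  refine ⟨?_, ?_, ?_⟩
  · rintro x hx
    obtain ⟨k, hk⟩ := h.pel x hx
    exact ⟨k, Subtype.ext (by rw [Subgroup.coe_pow, hk, Subgroup.coe_one])⟩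
  · rintro x hx g
    exact h.conj x hx g
  · intro S hS
    obtain ⟨W, hWS, hWa, hWn, hW⟩ := h.loc (S.map V.subtype) (hS.map _)
    refine ⟨W.subgroupOf V, ?_, ?_, ?_, ?_⟩
    · intro x hx
      obtain ⟨y, hy, hyx⟩ := hWS hx
      have : y = x := Subtype.ext hyx
      rwa [← this]
    · intro x hx y hy
      exact Subtype.ext (hWa x hx y hy)
    · intro s hs x hx
      exact hWn s ⟨s, hs, rfl⟩ x hx
    · intro x hx
      exact hW x ⟨x, hx, rfl⟩

theorem coprime_of_pel {X : Type u} [Group X] [Finite X] {p : ℕ} {x : X} {k m : ℕ}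
    (hx : x ^ p ^ k = 1) (hm : m.Coprime p) : (orderOf x).Coprime m :=
  Nat.Coprime.coprime_dvd_left (orderOf_dvd_of_pow_eq_one hx) (hm.symm.pow_left k)

/-- two `p`-elements in the same coset of a normal `p'`-subgroup `K` are conjugate under `K`. -/
theorem conj_of_mk_eq {X : Type u} [Group X] [Finite X] {p : ℕ} (K : Subgroup X) [K.Normal]
    (hK : (Nat.card K).Coprime p) {x y : X} {k l : ℕ} (hx : x ^ p ^ k = 1) (hy : y ^ p ^ l = 1)
    (hxy : (QuotientGroup.mk x : X ⧸ K) = QuotientGroup.mk y) : ∃ g ∈ K, g * x * g⁻¹ = y := by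
  have h1 : x * y⁻¹ ∈ K := by
    have : (QuotientGroup.mk (x * y⁻¹) : X ⧸ K) = 1 := by
      rw [QuotientGroup.mk_mul, QuotientGroup.mk_inv, hxy, mul_inv_cancel]
    exact (QuotientGroup.eq_one_iff _).1 this
  have hN : y ∈ normalizer (K : Set X) := by rw [normalizer_eq_top]; trivial
  obtain ⟨g, hg, c, hc, hcy, hgx⟩ := H25.coprime_coset_conj K y hN (coprime_of_pel hy hK) (x * y⁻¹) h1
  rw [inv_mul_cancel_right] at hgx
  refine ⟨g, hg, ?_⟩
  rw [hgx]
  have hcm : Commute c y := hcy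
  have h2 : (c * y) ^ p ^ (k + l) = 1 := by
    rw [← hgx, conj_pow, pow_add, pow_mul, hx, one_pow, mul_one, mul_inv_cancel]
  rw [hcm.mul_pow, pow_add, mul_comm (p ^ k), pow_mul y, hy, one_pow, mul_one] at h2
  have h3 : orderOf c = 1 := by
    have e1 : orderOf c ∣ p ^ l * p ^ k := orderOf_dvd_of_pow_eq_one h2
    have e2 : orderOf c ∣ Nat.card K := K.orderOf_dvd_natCard hc
    rw [← pow_add] at e1
    exact Nat.eq_one_of_dvd_coprimes (hK.pow_right (l + k)) e2 e1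
  rw [orderOf_eq_one_iff] at h3
  rw [h3, one_mul]

/-- the intersection of `D` with a solvable group is controlled by a normal `p`-subgroup of `V / O_{p'}(V)`. -/
theorem exists_W {V : Type u} [Group V] [Finite V] [Group.IsSolvable V] {p : ℕ} [hp : Fact p.Prime] (hp5 : 5 ≤ p)
    {D : Set V} (hD : Loc p D) (K : Subgroup V) [hKn : K.Normal] (hKc : (Nat.card K).Coprime p)
    (hTO : pPrimeCore p (V ⧸ K) = ⊥) : ∃ W : Subgroup (V ⧸ K), W.Normal ∧ W ≤ pCore p (V ⧸ K) ∧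
      ∀ v : V, (∃ k : ℕ, v ^ p ^ k = 1) → (v ∈ D ↔ (QuotientGroup.mk v : V ⧸ K) ∈ W) := by
  classical
  obtain ⟨S⟩ : Nonempty (Sylow p V) := inferInstance
  obtain ⟨W, hWS, hWa, hWn, hW⟩ := hD.loc (S : Subgroup V) S.isPGroup'
  -- the image of the Sylow subgroup
  have hSsurj : pCore p (V ⧸ K) ≤ (S : Subgroup V).map (QuotientGroup.mk' K) := by
    have := Solv.pCore_le_sylow (G := V ⧸ K) (p := p) (S.mapSurjective (QuotientGroup.mk'_surjective K))
    simpa using this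
  have hfit : fittingSubgroup (V ⧸ K) ≤ pCore p (V ⧸ K) := (H91.fitting_eq_pCore p hTO).le
  have hpelS : ∀ s ∈ (S : Subgroup V), ∃ k : ℕ, s ^ p ^ k = 1 := by
    intro s hs
    obtain ⟨k, hk⟩ := S.isPGroup' ⟨s, hs⟩
    exact ⟨k, congrArg Subtype.val hk⟩
  have hSK : ∀ s ∈ (S : Subgroup V), s ∈ K → s = 1 := by
    intro s hs hsK
    obtain ⟨k, hk⟩ := hpelS s hs
    have e1 : orderOf s = 1 := Nat.eq_one_of_dvd_coprimes (hKc.pow_right k) (K.orderOf_dvd_natCard hsK)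
      (orderOf_dvd_of_pow_eq_one hk)
    exact orderOf_eq_one_iff.1 e1
  -- (i)
  have h1 : ∀ x ∈ W, (QuotientGroup.mk x : V ⧸ K) ∈ pCore p (V ⧸ K) := by
    intro x hx
    obtain ⟨k, hk⟩ := hpelS x (hWS hx)
    refine H79.QuadSolv.mem_pCore_of_quad hp5 (k := k) (B := W.map (QuotientGroup.mk' K)) ?_ ?_ ?_
    · rw [← QuotientGroup.mk_pow, hk, QuotientGroup.mk_one]
    · rw [mem_centralizer_iff]
      rintro _ ⟨w, hw, rfl⟩
      show (QuotientGroup.mk w : V ⧸ K) * QuotientGroup.mk x = QuotientGroup.mk x * QuotientGroup.mk w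
      rw [← QuotientGroup.mk_mul, ← QuotientGroup.mk_mul, hWa w hw x hx]
    · intro y hy z hz
      obtain ⟨s, hs, rfl⟩ := hSsurj (hfit hy)
      obtain ⟨n, rfl⟩ := mem_zpowers_iff.1 hz
      refine ⟨s * x ^ n * s⁻¹ * (x ^ n)⁻¹, W.mul_mem (hWn s hs _ (W.zpow_mem hx n)) (W.inv_mem (W.zpow_mem hx n)), ?_⟩
      simp
  -- (ii)
  have h2 : ∀ v : V, (∃ k : ℕ, v ^ p ^ k = 1) → (QuotientGroup.mk v : V ⧸ K) ∈ pCore p (V ⧸ K) →
      (v ∈ D ↔ (QuotientGroup.mk v : V ⧸ K) ∈ W.map (QuotientGroup.mk' K)) := by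
    rintro v ⟨k, hk⟩ hv
    obtain ⟨s, hs, hsv⟩ := hSsurj hv
    obtain ⟨l, hl⟩ := hpelS s hs
    have hsv' : (QuotientGroup.mk s : V ⧸ K) = QuotientGroup.mk v := hsv
    obtain ⟨g, hg, hgs⟩ := conj_of_mk_eq K hKc hl hk hsv'
    have e1 : v ∈ D ↔ s ∈ D := by
      constructor
      · intro h
        have := hD.conj v h g⁻¹
        rw [← hgs] at this
        have e : g⁻¹ * (g * s * g⁻¹) * g⁻¹⁻¹ = s := by group
        rwa [e] at this
      · intro h
        rw [← hgs]; exact hD.conj s h g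
    rw [e1, hW s hs]
    constructor
    · intro h
      exact ⟨s, h, hsv⟩
    · rintro ⟨w, hw, hwv⟩
      have hwv' : (QuotientGroup.mk w : V ⧸ K) = QuotientGroup.mk s := hwv.trans hsv'.symm
      have e2 : s * w⁻¹ ∈ K := by
        rw [← QuotientGroup.eq_one_iff, QuotientGroup.mk_mul, QuotientGroup.mk_inv, hwv', mul_inv_cancel]
      have e3 := hSK _ ((S : Subgroup V).mul_mem hs ((S : Subgroup V).inv_mem (hWS hw))) e2
      rw [mul_inv_eq_one] at e3
      rwa [e3]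
  -- (iii)
  have h3 : ∀ v : V, v ∈ D → (QuotientGroup.mk v : V ⧸ K) ∈ pCore p (V ⧸ K) := by
    intro v hv
    obtain ⟨k, hk⟩ := hD.pel v hv
    have hz : IsPGroup p (zpowers v) := by
      apply IsPGroup.of_card (n := (Nat.factorization (orderOf v)) p)
      rw [Nat.card_zpowers]
      obtain ⟨j, hj, hj'⟩ := (Nat.dvd_prime_pow hp.out).1 (orderOf_dvd_of_pow_eq_one hk)
      rw [hj', Nat.factorization_pow, hp.out.factorization]
      simp
    obtain ⟨Q, hQ⟩ := hz.exists_le_sylow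
    obtain ⟨g, hg⟩ := MulAction.exists_smul_eq V Q S
    have hgv : g * v * g⁻¹ ∈ (S : Subgroup V) := by
      rw [← hg]
      have : v ∈ (Q : Subgroup V) := hQ (mem_zpowers v)
      rw [Sylow.coe_subgroup_smul]
      exact Subgroup.mem_pointwise_smul_iff_inv_smul_mem.2 (by
        show (MulAut.conj g)⁻¹ (g * v * g⁻¹) ∈ (Q : Subgroup V)
        rw [← map_inv, MulAut.conj_apply]
        have e : g⁻¹ * (g * v * g⁻¹) * g⁻¹⁻¹ = v := by group
        rwa [e])
    have h4 := h1 _ ((hW _ hgv).1 (hD.conj v hv g))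
    have h5 : (pCore p (V ⧸ K)).Normal := inferInstance
    have h6 := h5.conj_mem _ h4 (QuotientGroup.mk g)⁻¹
    have e : (QuotientGroup.mk g : V ⧸ K)⁻¹ * QuotientGroup.mk (g * v * g⁻¹) * (QuotientGroup.mk g : V ⧸ K)⁻¹⁻¹ =
        QuotientGroup.mk v := by
      rw [QuotientGroup.mk_mul, QuotientGroup.mk_mul, QuotientGroup.mk_inv]; group
    rwa [e] at h6
  have hWle : W.map (QuotientGroup.mk' K) ≤ pCore p (V ⧸ K) := by
    rintro _ ⟨w, hw, rfl⟩
    exact h1 w hw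
  have hiff : ∀ v : V, (∃ k : ℕ, v ^ p ^ k = 1) →
      (v ∈ D ↔ (QuotientGroup.mk v : V ⧸ K) ∈ W.map (QuotientGroup.mk' K)) := by
    intro v hv
    constructor
    · intro h
      exact (h2 v hv (h3 v h)).1 h
    · intro h
      exact (h2 v hv (hWle h)).2 h
  refine ⟨W.map (QuotientGroup.mk' K), ⟨?_⟩, hWle, hiff⟩
  rintro _ ⟨w, hw, rfl⟩ t
  obtain ⟨g, rfl⟩ := QuotientGroup.mk'_surjective K t
  obtain ⟨k, hk⟩ := hpelS w (hWS hw)
  rw [← map_mul, ← map_inv, ← map_mul]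
  refine (hiff (g * w * g⁻¹) ⟨k, ?_⟩).1 ?_
  · rw [conj_pow, hk, mul_one, mul_inv_cancel]
  · exact hD.conj w ((hW w (hWS hw)).2 hw) g

end Cfsg.Agent.H31.Flav
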