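import Mathlib
import Cfsg.Agent.H31.Flav.Loc

/-!
# The closure principle: in a simple group with all two-generated subgroups solvable, `D` is everything
-/

set_option autoImplicit false

namespace Cfsg.Agent.H31.Flav

open Subgroup Cfsg

universe u

variable {G : Type u} [Group G] [Finite G] {p : ℕ} [hp : Fact p.Prime]

omit [Finite G] in
theorem isPGroup_zpowers_of_pel {x : G} {k : ℕ} (hk : x ^ p ^ k = 1) : IsPGroup p (zpowers x) := by
  obtain ⟨j, hj, hj'⟩ := (Nat.dvd_prime_pow hp.out).1 (orderOf_dvd_of_pow_eq_one hk)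
  apply IsPGroup.of_card (n := j)
  rw [Nat.card_zpowers, hj']

theorem loc_one {D : Set G} (hD : Loc p D) : (1 : G) ∈ D := by
  obtain ⟨W, -, -, -, hW⟩ := hD.loc ⊥ IsPGroup.of_bot
  exact (hW 1 (one_mem _)).2 (one_mem _)

theorem loc_zpow {D : Set G} (hD : Loc p D) {x : G} (hx : x ∈ D) (n : ℤ) : x ^ n ∈ D := by
  obtain ⟨k, hk⟩ := hD.pel x hx
  obtain ⟨W, -, -, -, hW⟩ := hD.loc (zpowers x) (isPGroup_zpowers_of_pel hk)
  exact (hW _ (zpow_mem_zpowers x n)).2 (W.zpow_mem ((hW x (mem_zpowers x)).1 hx) n)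

theorem loc_mul (hp5 : 5 ≤ p) {D : Set G} (hD : Loc p D) {w z : G}
    (hs : Group.IsSolvable (closure ({w, z} : Set G)))
    (hw : ∀ u ∈ zpowers w, (∃ k : ℕ, u ^ p ^ k = 1) → u ∈ D) (hz : z ∈ D) :
    ∀ u ∈ zpowers (w * z), (∃ k : ℕ, u ^ p ^ k = 1) → u ∈ D := by
  obtain ⟨V, hV⟩ : ∃ V : Subgroup G, V = closure ({w, z} : Set G) := ⟨_, rfl⟩
  rw [← hV] at hs
  have hwV : w ∈ V := by rw [hV]; exact subset_closure (by simp)
  have hzV : z ∈ V := by rw [hV]; exact subset_closure (by simp)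
  obtain ⟨W, hWn, hWp, hW⟩ := exists_W hp5 (hD.comap V) (pPrimeCore p V) (Solv.pPrimeCore_card_coprime p)
    (Solv.pPrimeCore_quotient_pPrimeCore p)
  let wv : V := ⟨w, hwV⟩
  let zv : V := ⟨z, hzV⟩
  let q : V →* (V ⧸ pPrimeCore p V) ⧸ W := (QuotientGroup.mk' W).comp (QuotientGroup.mk' (pPrimeCore p V))
  have hq : ∀ v : V, q v = 1 ↔ (QuotientGroup.mk v : V ⧸ pPrimeCore p V) ∈ W := by
    intro v
    show (QuotientGroup.mk (QuotientGroup.mk v : V ⧸ pPrimeCore p V) : (V ⧸ pPrimeCore p V) ⧸ W) = 1 ↔ _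
    rw [QuotientGroup.eq_one_iff]
  obtain ⟨a, b, ha, hb, hab, ⟨k, hk⟩, hbp⟩ := H79.SubnCent.split_pp (p := p) wv
  have hqa : q a = 1 := by
    rw [hq]
    refine (hW a ⟨k, hk⟩).1 (hw a ?_ ⟨k, by rw [← Subgroup.coe_pow, hk, Subgroup.coe_one]⟩)
    obtain ⟨n, rfl⟩ := mem_zpowers_iff.1 ha
    exact mem_zpowers_iff.2 ⟨n, rfl⟩
  have hqz : q zv = 1 := by
    rw [hq]
    obtain ⟨l, hl⟩ := hD.pel z hz
    exact (hW zv ⟨l, Subtype.ext hl⟩).1 hz
  have hqwz : q (wv * zv) = q b := by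
    rw [map_mul, hqz, mul_one, hab, map_mul, hqa, one_mul]
  intro u hu ⟨l, hl⟩
  obtain ⟨n, rfl⟩ := mem_zpowers_iff.1 hu
  let uv : V := (wv * zv) ^ n
  have huv : (uv : G) = (w * z) ^ n := by simp [uv, wv, zv]
  have hul : uv ^ p ^ l = 1 := Subtype.ext (by rw [Subgroup.coe_pow, huv, hl, Subgroup.coe_one])
  have h1 : q uv = 1 := by
    have e1 : q uv = q b ^ n := by rw [← hqwz, ← map_zpow]
    have e2 : orderOf (q uv) ∣ orderOf b := by
      rw [e1]
      exact (orderOf_dvd_of_mem_zpowers (zpow_mem_zpowers (q b) n)).trans (orderOf_map_dvd q b)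
    have e3 : orderOf (q uv) ∣ p ^ l := orderOf_dvd_of_pow_eq_one (by rw [← map_pow, hul, map_one])
    exact orderOf_eq_one_iff.1 (Nat.eq_one_of_dvd_coprimes (hbp.pow_right l) e2 e3)
  have h2 := (hW uv ⟨l, hul⟩).2 ((hq uv).1 h1)
  rw [← huv]
  exact h2

theorem loc_univ [IsSimpleGroup G] (hp5 : 5 ≤ p) {D : Set G} (hD : Loc p D)
    (hs : ∀ a b : G, Group.IsSolvable (closure ({a, b} : Set G))) (hne : ∃ d ∈ D, d ≠ 1) :
    ∀ x : G, (∃ k : ℕ, x ^ p ^ k = 1) → x ∈ D := by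
  have hn : (closure D).Normal := by
    constructor
    intro x hx g
    induction hx using closure_induction with
    | mem x hx => exact subset_closure (hD.conj x hx g)
    | one => rw [mul_one, mul_inv_cancel]; exact one_mem _
    | mul x y _ _ h1 h2 =>
      have e : g * (x * y) * g⁻¹ = (g * x * g⁻¹) * (g * y * g⁻¹) := by group
      rw [e]; exact Subgroup.mul_mem _ h1 h2
    | inv x _ h1 =>
      have e : g * x⁻¹ * g⁻¹ = (g * x * g⁻¹)⁻¹ := by group
      rw [e]; exact Subgroup.inv_mem _ h1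
  have htop : closure D = ⊤ := by
    rcases hn.eq_bot_or_eq_top with h | h
    · obtain ⟨d, hd, hd1⟩ := hne
      have : d ∈ closure D := subset_closure hd
      rw [h, mem_bot] at this
      exact absurd this hd1
    · exact h
  have key : ∀ w ∈ closure D, ∀ u ∈ zpowers w, (∃ k : ℕ, u ^ p ^ k = 1) → u ∈ D := by
    intro w hw
    induction hw using closure_induction_right with
    | one =>
      intro u hu _
      rw [zpowers_one_eq_bot, mem_bot] at hu
      rw [hu]; exact loc_one hD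
    | mul_right x hx y hy ih => exact loc_mul hp5 hD (hs _ _) ih hy
    | mul_inv_cancel x hx y hy ih =>
      have h1 : y⁻¹ ∈ D := by
        have := loc_zpow hD hy (-1)
        rwa [zpow_neg_one] at this
      exact loc_mul hp5 hD (hs _ _) ih h1
  intro x hx
  exact key x (by rw [htop]; trivial) x (mem_zpowers x) hx

end Cfsg.Agent.H31.Flav
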